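import Cfsg.Agent.H35.Quotient
import Cfsg.Agent.H35.ZJ
import Cfsg.Agent.H51.PLayer
import Cfsg.Prelude.Def_PLocal

set_option autoImplicit false

/-!
`p`-stability and the quotient by `O_{p'}`.
-/

namespace Cfsg.Agent.H35

open Subgroup
open scoped commutatorElement

variable {G X : Type*} [Group G] [Group X] [Finite G] {p : ℕ} [Fact p.Prime]

/-- A `p`-subgroup of a subgroup mapping onto its image, when the latter is a `p`-group. -/
theorem exists_pGroup_map_eq (f : G →* X) {K : Subgroup G} (h : IsPGroup p (K.map f)) :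
    ∃ P : Subgroup G, P ≤ K ∧ IsPGroup p P ∧ P.map f = K.map f := by
  obtain ⟨S⟩ : Nonempty (Sylow p K) := inferInstance
  have : Finite (K.map f) := Finite.of_surjective _ (f.subgroupMap_surjective K)
  refine ⟨(S : Subgroup K).map K.subtype, map_subtype_le _, S.isPGroup'.map _, ?_⟩
  set S' := S.mapSurjective (f.subgroupMap_surjective K)
  have htop : (S' : Subgroup (K.map f)) = ⊤ := (S'.3 (h.to_subgroup ⊤) le_top).symm
  refine le_antisymm (map_mono (map_subtype_le _)) fun y hy => ?_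
  have hy' : (⟨y, hy⟩ : K.map f) ∈ (S' : Subgroup (K.map f)) := by rw [htop]; exact mem_top _
  obtain ⟨x, hx, he⟩ := hy'
  exact ⟨x, mem_map_of_mem _ hx, congrArg Subtype.val he⟩

/-- The image of `a` in `N(P) / C(P)` lies in `O_p`. -/
def ActsIntoPCore (p : ℕ) {G : Type*} [Group G] (P : Subgroup G) (a : G) : Prop :=
  ∀ ha : a ∈ normalizer (P : Set G),
    QuotientGroup.mk' ((centralizer (P : Set G)).subgroupOf (normalizer (P : Set G))) ⟨a, ha⟩ ∈
      Cfsg.pCore p _

omit [Finite G] [Fact p.Prime] in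
theorem map_le_pCore_iff {A P : Subgroup G} :
    (A.subgroupOf (normalizer (P : Set G))).map
        (QuotientGroup.mk' ((centralizer (P : Set G)).subgroupOf (normalizer (P : Set G)))) ≤
      Cfsg.pCore p _ ↔ ∀ a ∈ A, ActsIntoPCore p P a := by
  constructor
  · intro h a ha hN
    exact h ⟨⟨a, hN⟩, ha, rfl⟩
  · rintro h _ ⟨⟨a, hN⟩, ha, rfl⟩
    exact h a ha hN

theorem actsIntoPCore_map_iff (f : G →* X) (hf : Function.Surjective f)
    (hker : (Nat.card f.ker).Coprime p) {P : Subgroup G} (hP : IsPGroup p P) {a : G}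
    (ha : a ∈ normalizer (P : Set G)) : ActsIntoPCore p (P.map f) (f a) ↔ ActsIntoPCore p P a := by
  set N := normalizer (P : Set G) with hN
  set Nb := normalizer ((P.map f : Subgroup X) : Set X) with hNb
  have hmap : N.map f = Nb := map_normalizer_eq f hf hker hP
  let g : N →* Nb := MonoidHom.codRestrict (f.comp N.subtype) Nb fun x => hmap ▸ mem_map_of_mem f x.2
  have hg : Function.Surjective g := fun y => by
    obtain ⟨x, hx, he⟩ := (hmap.symm ▸ y.2 : (y : X) ∈ N.map f)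
    exact ⟨⟨x, hx⟩, Subtype.ext he⟩
  let q := (QuotientGroup.mk' ((centralizer ((P.map f : Subgroup X) : Set X)).subgroupOf Nb)).comp g
  have hqs : Function.Surjective q := (QuotientGroup.mk'_surjective _).comp hg
  have hqker : q.ker = (centralizer (P : Set G)).subgroupOf N := by
    ext x
    simp only [q, MonoidHom.mem_ker, MonoidHom.comp_apply, QuotientGroup.mk'_apply,
      QuotientGroup.eq_one_iff, mem_subgroupOf]
    show f (x : G) ∈ centralizer ((P.map f : Subgroup X) : Set X) ↔ _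
    constructor
    · intro h
      refine mem_centralizer_iff.2 fun y hy => ?_
      have h1 : ⁅(x : G), y⁆ ∈ P := mul_mem ((x.2 y).1 hy) (inv_mem hy)
      have h2 : ⁅(x : G), y⁆ ∈ f.ker := by
        rw [MonoidHom.mem_ker, map_commutatorElement]
        exact commutatorElement_eq_one_iff_mul_comm.2
          (mem_centralizer_iff.1 h _ (mem_map_of_mem f hy)).symm
      have h3 : ⁅(x : G), y⁆ ∈ P ⊓ f.ker := ⟨h1, h2⟩
      rw [inf_eq_bot_of_coprime hP hker, mem_bot] at h3
      exact (commutatorElement_eq_one_iff_mul_comm.1 h3).symm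
    · intro h
      rw [← map_centralizer_eq f hf hker hP]
      exact mem_map_of_mem f h
  let e := (QuotientGroup.quotientMulEquivOfEq hqker.symm).trans
    (QuotientGroup.quotientKerEquivOfSurjective q hqs)
  have hea : ∀ x : N, e (QuotientGroup.mk' _ x) = q x := fun _ => rfl
  have hfa : f a ∈ Nb := hmap ▸ mem_map_of_mem f ha
  constructor
  · intro h hN'
    have h' := h hfa
    rw [← Cfsg.Agent.H51.pCore_map_equiv p e] at h'
    obtain ⟨z, hz, he⟩ := h'
    have : z = QuotientGroup.mk' _ (⟨a, hN'⟩ : N) := e.injective (he.trans (hea ⟨a, hN'⟩).symm)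
    rwa [this] at hz
  · intro h hN'
    rw [← Cfsg.Agent.H51.pCore_map_equiv p e]
    exact ⟨_, h ha, hea ⟨a, ha⟩⟩

/-- A normal `p`-subgroup lies in `O_{p',p}`. -/
theorem le_pPrimePCore_of_normal {P : Subgroup G} (hn : P.Normal) (hP : IsPGroup p P) :
    P ≤ Cfsg.pPrimePCore p G := by
  haveI := Cfsg.Agent.H51.pPrimeCore_normal p G
  intro x hx
  exact (Cfsg.Agent.H51.le_pCore (hn.map _ (QuotientGroup.mk'_surjective _)) (hP.map _) :
    P.map (QuotientGroup.mk' (Cfsg.pPrimeCore p G)) ≤ _) (mem_map_of_mem _ hx)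

theorem isPStable_quotient [(Cfsg.pPrimeCore p G).Normal] (h : Cfsg.IsPStable p G) :
    Cfsg.IsPStable p (G ⧸ Cfsg.pPrimeCore p G) := by
  obtain ⟨hodd, hne, h⟩ := h
  set q := QuotientGroup.mk' (Cfsg.pPrimeCore p G)
  have hqs : Function.Surjective q := QuotientGroup.mk'_surjective _
  have hkeq : q.ker = Cfsg.pPrimeCore p G := QuotientGroup.ker_mk' _
  have hker : (Nat.card q.ker).Coprime p := by rw [hkeq]; exact Cfsg.Agent.H51.pPrimeCore_coprime p G
  have hO := Cfsg.Agent.H35.isPGroup_pCore (p := p) G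
  refine ⟨hodd, ?_, fun A P hA hP hAP hPle hPn hPAA => ?_⟩
  · intro hbot
    apply hne
    have hle : (Cfsg.pCore p G).map q ≤ Cfsg.pCore p _ :=
      Cfsg.Agent.H51.le_pCore ((Cfsg.Agent.H51.pCore_normal p G).map q hqs) (hO.map q)
    rw [hbot, le_bot_iff, Subgroup.map_eq_bot_iff] at hle
    rw [← inf_eq_bot_of_coprime hO hker]
    exact (inf_eq_left.2 hle).symm
  have hPn' : P.Normal := by
    rwa [Cfsg.Agent.H51.pPrimeCore_quotient_self, bot_sup_eq] at hPn
  have hPc : (P.comap q).map q = P := map_comap_eq_self_of_surjective hqs P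
  obtain ⟨P0, hP0le, hP0, hP0map⟩ := exists_pGroup_map_eq (p := p) q (K := P.comap q) (by rw [hPc]; exact hP)
  rw [hPc] at hP0map
  subst hP0map
  have hNtop : (normalizer (P0 : Set G)).map q = ⊤ := by
    rw [map_normalizer_eq q hqs hker hP0, normalizer_eq_top_iff]; exact hPn'
  have hAc : ((normalizer (P0 : Set G)) ⊓ A.comap q).map q = A := by
    refine le_antisymm ((map_mono inf_le_right).trans (map_comap_le _ _)) fun y hy => ?_
    obtain ⟨x, hx, rfl⟩ := (hNtop ▸ mem_top y : y ∈ (normalizer (P0 : Set G)).map q)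
    exact ⟨x, ⟨hx, hy⟩, rfl⟩
  obtain ⟨A0, hA0le, hA0, hA0map⟩ := exists_pGroup_map_eq (p := p) q
    (K := normalizer (P0 : Set G) ⊓ A.comap q) (by rw [hAc]; exact hA)
  rw [hAc] at hA0map
  subst hA0map
  have hA0N : A0 ≤ normalizer (P0 : Set G) := hA0le.trans inf_le_left
  have hcle : ⁅P0, A0⁆ ≤ P0 := by
    rw [commutator_comm]
    exact (le_normalizer_iff_commutator_le_right).1 hA0N
  have hPAA0 : ⁅⁅P0, A0⁆, A0⁆ = ⊥ := by
    have h1 : ⁅⁅P0, A0⁆, A0⁆ ≤ P0 := (commutator_mono hcle le_rfl).trans hcle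
    have h2 : ⁅⁅P0, A0⁆, A0⁆ ≤ q.ker := by
      rw [← Subgroup.map_eq_bot_iff, map_commutator, map_commutator, hPAA]
    exact le_bot_iff.1 ((le_inf h1 h2).trans (inf_eq_bot_of_coprime hP0 hker).le)
  have hsup : Cfsg.pPrimeCore p G ⊔ P0 = (P0.map q).comap q := by rw [comap_map_eq, hkeq, sup_comm]
  have hconc := h A0 P0 hA0 hP0 (fun a ha x hx => (hA0N ha x).1 hx)
    (fun x hx => (Cfsg.Agent.H51.le_pCore hPn' hP) (mem_map_of_mem q hx))
    (by rw [hsup]; exact hPn'.comap q) hPAA0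
  rw [map_le_pCore_iff] at hconc ⊢
  rintro _ ⟨a, ha, rfl⟩
  exact (actsIntoPCore_map_iff q hqs hker hP0 (hA0N ha)).2 (hconc a ha)

theorem isPStable_of_quotient [(Cfsg.pPrimeCore p G).Normal] (hne : Cfsg.pCore p G ≠ ⊥)
    (h : Cfsg.IsPStable p (G ⧸ Cfsg.pPrimeCore p G)) : Cfsg.IsPStable p G := by
  obtain ⟨hodd, -, h⟩ := h
  refine ⟨hodd, hne, fun A P hA hP hAP hPle hPn hPAA => ?_⟩
  set q := QuotientGroup.mk' (Cfsg.pPrimeCore p G)
  have hqs : Function.Surjective q := QuotientGroup.mk'_surjective _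
  have hkeq : q.ker = Cfsg.pPrimeCore p G := QuotientGroup.ker_mk' _
  have hker : (Nat.card q.ker).Coprime p := by rw [hkeq]; exact Cfsg.Agent.H51.pPrimeCore_coprime p G
  have hPn' : (P.map q).Normal := by
    have : (Cfsg.pPrimeCore p G ⊔ P).map q = P.map q := by
      rw [Subgroup.map_sup, (Subgroup.map_eq_bot_iff _).2 hkeq.ge, bot_sup_eq]
    rw [← this]
    exact hPn.map q hqs
  have hconc := h (A.map q) (P.map q) (hA.map q) (hP.map q)
    (by rintro _ ⟨a, ha, rfl⟩ _ ⟨x, hx, rfl⟩; exact ⟨a * x * a⁻¹, hAP a ha x hx, by simp⟩)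
    (le_pPrimePCore_of_normal hPn' (hP.map q))
    (by rw [Cfsg.Agent.H51.pPrimeCore_quotient_self, bot_sup_eq]; exact hPn')
    (by rw [← map_commutator, ← map_commutator, hPAA, Subgroup.map_bot])
  rw [map_le_pCore_iff] at hconc ⊢
  intro a ha
  exact (actsIntoPCore_map_iff q hqs hker hP (mem_normalizer_of_forall (hAP a ha))).1
    (hconc _ (mem_map_of_mem q ha))

theorem pow_conj_quadratic {a x : G} (h : ⁅a, ⁅a, x⁆⁆ = 1) (n : ℕ) :
    a ^ n * x * (a ^ n)⁻¹ = ⁅a, x⁆ ^ n * x := by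
  induction n with
  | zero => simp
  | succ n ih =>
    have hc : Commute a ⁅a, x⁆ := commutatorElement_eq_one_iff_mul_comm.1 h
    calc a ^ (n + 1) * x * (a ^ (n + 1))⁻¹ = a * (a ^ n * x * (a ^ n)⁻¹) * a⁻¹ := by
          rw [pow_succ', mul_inv_rev]; simp only [mul_assoc]
      _ = a * ⁅a, x⁆ ^ n * (x * a⁻¹) := by rw [ih]; simp only [mul_assoc]
      _ = ⁅a, x⁆ ^ n * a * (x * a⁻¹) := by rw [(hc.pow_right n).eq]
      _ = ⁅a, x⁆ ^ (n + 1) * x := by
          rw [pow_succ]; simp only [commutatorElement_def]; group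

/-- For `O_{p'} = 1`, `p`-stability gives stability of the conjugation action on every normal
`p`-subgroup. -/
theorem isPStableOn_of_isPStable (hO : Cfsg.pPrimeCore p G = ⊥) (h : Cfsg.IsPStable p G)
    (V : Subgroup G) [hVn : V.Normal] (hV : IsPGroup p V) : Cfsg.IsPStableOn p V := by
  obtain ⟨-, -, h⟩ := h
  intro a ha
  set C := centralizer (V : Set G)
  obtain ⟨n, hn⟩ := IsPGroup.iff_card.1 hV
  have hquad : ∀ x ∈ V, ⁅a, ⁅a, x⁆⁆ = 1 := by
    intro x hx
    have h1 : ⁅a, x⁆ ∈ ⁅V, zpowers a⁆ :=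
      commutator_comm (zpowers a) V ▸ commutator_mem_commutator (mem_zpowers a) hx
    have h2 : ⁅a, ⁅a, x⁆⁆ ∈ ⁅⁅V, zpowers a⁆, zpowers a⁆ :=
      commutator_comm (zpowers a) ⁅V, zpowers a⁆ ▸ commutator_mem_commutator (mem_zpowers a) h1
    rwa [ha, mem_bot] at h2
  have hpn : (QuotientGroup.mk a : G ⧸ C) ^ (p ^ n) = 1 := by
    rw [← QuotientGroup.mk_pow, QuotientGroup.eq_one_iff]
    refine mem_centralizer_iff.2 fun x hx => ?_
    have hc : ⁅a, x⁆ ∈ V := mul_mem (hVn.conj_mem x hx a) (inv_mem hx)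
    have h1 : ⁅a, x⁆ ^ (p ^ n) = 1 := by
      rw [← hn]; exact congrArg Subtype.val (pow_card_eq_one' (x := (⟨_, hc⟩ : V)))
    have h2 := pow_conj_quadratic (hquad x hx) (p ^ n)
    rw [h1, one_mul, mul_inv_eq_iff_eq_mul] at h2
    exact h2.symm
  -- the `p`-part of `a`
  obtain ⟨k, m, hm, hord⟩ := Nat.exists_eq_pow_mul_and_not_dvd (orderOf_pos a).ne' p
    (Fact.out : p.Prime).ne_one
  have hcop : m.Coprime (p ^ (k + n + 1)) :=
    (((Fact.out : p.Prime).coprime_iff_not_dvd.2 hm).symm).pow_right _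
  obtain ⟨j, -, hj⟩ := Nat.exists_mul_mod_eq_one_of_coprime hcop
    (Nat.one_lt_pow (by omega) (Fact.out : p.Prime).one_lt)
  set a' := a ^ (m * j) with ha'
  have hmk : (QuotientGroup.mk a' : G ⧸ C) = QuotientGroup.mk a := by
    rw [ha', QuotientGroup.mk_pow, ← Nat.mod_add_div (m * j) (p ^ (k + n + 1)), hj, pow_add, pow_one,
      pow_mul, show k + n + 1 = n + (k + 1) by omega, pow_add, pow_mul, hpn, one_pow, one_pow, mul_one]
  have hA : IsPGroup p (zpowers a') := by
    obtain ⟨i, -, hi⟩ := (Nat.dvd_prime_pow (Fact.out : p.Prime)).1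
      (orderOf_dvd_of_pow_eq_one (show a' ^ (p ^ k) = 1 by
        rw [ha', ← pow_mul, show m * j * p ^ k = p ^ k * m * j by ring, ← hord, pow_mul,
          pow_orderOf_eq_one, one_pow]))
    exact IsPGroup.of_card (n := i) (by rw [Nat.card_zpowers, hi])
  have hle : zpowers a' ≤ zpowers a := zpowers_le.2 (pow_mem (mem_zpowers a) _)
  have hconc := h (zpowers a') V hA hV (fun b _ x hx => hVn.conj_mem x hx b)
    (le_pPrimePCore_of_normal hVn hV) (by rw [hO, bot_sup_eq]; exact hVn)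
    (le_bot_iff.1 (ha ▸ commutator_mono (commutator_mono le_rfl hle) hle))
  rw [map_le_pCore_iff] at hconc
  have hN : normalizer (V : Set G) = ⊤ := normalizer_eq_top_iff.2 hVn
  have hmem := hconc a' (mem_zpowers a') (hN ▸ mem_top a')
  let q := (QuotientGroup.mk' C).comp (normalizer (V : Set G)).subtype
  have hqs : Function.Surjective q := fun y => by
    obtain ⟨x, rfl⟩ := QuotientGroup.mk_surjective y
    exact ⟨⟨x, hN ▸ mem_top x⟩, rfl⟩
  have hqk : q.ker = C.subgroupOf (normalizer (V : Set G)) := by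
    ext x
    simp [q, mem_subgroupOf, QuotientGroup.eq_one_iff]
  let e := (QuotientGroup.quotientMulEquivOfEq hqk.symm).trans
    (QuotientGroup.quotientKerEquivOfSurjective q hqs)
  rw [← hmk, ← Cfsg.Agent.H51.pCore_map_equiv p e]
  exact ⟨_, hmem, rfl⟩

end Cfsg.Agent.H35
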